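import Mathlib
import Cfsg.Agent.Lib.Helper73.BSW.Defs
import Cfsg.Agent.Lib.Helper11.DihedralSylow

/-!
# Brauer–Suzuki–Wall, dihedral form: building the configuration from `C(t) = O S`
-/

set_option autoImplicit false

namespace Cfsg.Agent.Lib.Helper73.BSW

theorem eq_one_of_coprime_pows {G : Type*} [Group G] {x : G} {a b : ℕ} (hab : Nat.Coprime a b)
    (ha : x ^ a = 1) (hb : x ^ b = 1) : x = 1 := by
  have h1 : orderOf x ∣ a := orderOf_dvd_of_pow_eq_one ha
  have h2 : orderOf x ∣ b := orderOf_dvd_of_pow_eq_one hb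
  have h3 : orderOf x ∣ 1 := by
    have := Nat.dvd_gcd h1 h2
    rwa [hab] at this
  exact orderOf_eq_one_iff.mp (Nat.dvd_one.mp h3)

/-- purely group-theoretic: build the configuration from `C = O S`. -/
theorem cfg_of_data {G : Type*} [Group G] [Finite G] (S : Sylow 2 G) (t : G) (ht : orderOf t = 2)
    (O R : Subgroup G) (hRS : R ≤ S) (hR : IsCyclic R) (hidx : R.relIndex (S : Subgroup G) = 2)
    (htR : t ∈ R)
    (hRinv : ∀ x ∈ (S : Subgroup G), x ∉ R → orderOf x = 2 ∧ ∀ c ∈ R, x * c * x⁻¹ = c⁻¹)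
    (hSC : (S : Subgroup G) ≤ Subgroup.centralizer ({t} : Set G))
    (hOodd : Odd (Nat.card O)) (hOC : O ≤ Subgroup.centralizer ({t} : Set G))
    (hOn : ∀ g ∈ Subgroup.centralizer ({t} : Set G), ∀ y ∈ O, g * y * g⁻¹ ∈ O)
    (hfac : ∀ x ∈ Subgroup.centralizer ({t} : Set G), ∃ y ∈ O, ∃ s ∈ (S : Subgroup G), x = y * s)
    (hRO : ∀ c ∈ R, ∀ y ∈ O, c * y = y * c)
    (hb : ∀ s ∈ (S : Subgroup G), s ∉ R → ∀ y ∈ O, s * y * s⁻¹ = y⁻¹)
    (hc : ∀ Y : Subgroup G, Y ≤ O → Y ≠ ⊥ →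
      Subgroup.normalizer (Y : Set G) ≤ Subgroup.centralizer ({t} : Set G))
    (hcj : ∀ s : G, orderOf s = 2 → IsConj t s) :
    Cfg (O ⊔ R) (Subgroup.centralizer ({t} : Set G)) t := by
  -- an element of `S` outside `R`
  obtain ⟨s0, hs0S, hs0R⟩ : ∃ s0 ∈ (S : Subgroup G), s0 ∉ R := by
    by_contra hcon
    push Not at hcon
    have : R.relIndex (S : Subgroup G) = 1 := Subgroup.relIndex_eq_one.2 hcon
    omega
  -- index two
  have hmul2 : ∀ a ∈ (S : Subgroup G), a ∉ R → ∀ b ∈ (S : Subgroup G), b ∉ R → a * b ∈ R := by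
    intro a ha haR b hb' hbR
    have h := Subgroup.mul_mem_iff_of_index_two (H := R.subgroupOf (S : Subgroup G)) hidx
      (a := ⟨a, ha⟩) (b := ⟨b, hb'⟩)
    simp only [Subgroup.mem_subgroupOf] at h
    exact h.2 ⟨fun h1 => absurd h1 haR, fun h1 => absurd h1 hbR⟩
  -- `O` is abelian
  have hOab : ∀ a ∈ O, ∀ b ∈ O, a * b = b * a := by
    intro a ha b hb'
    have h1 := hb s0 hs0S hs0R a ha
    have h2 := hb s0 hs0S hs0R b hb'
    have h3 := hb s0 hs0S hs0R (a * b) (O.mul_mem ha hb')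
    have h4 : s0 * (a * b) * s0⁻¹ = (s0 * a * s0⁻¹) * (s0 * b * s0⁻¹) := by group
    rw [h4, h1, h2] at h3
    have h5 : (a⁻¹ * b⁻¹)⁻¹ = ((a * b)⁻¹)⁻¹ := by rw [h3]
    rw [inv_inv, mul_inv_rev, inv_inv, inv_inv] at h5
    exact h5.symm
  -- `R` is abelian
  have hRab : ∀ a ∈ R, ∀ b ∈ R, a * b = b * a := by
    intro a ha b hb'
    obtain ⟨g, hg⟩ := hR.exists_generator
    obtain ⟨i, hi⟩ := Subgroup.mem_zpowers_iff.1 (hg ⟨a, ha⟩)
    obtain ⟨j, hj⟩ := Subgroup.mem_zpowers_iff.1 (hg ⟨b, hb'⟩)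
    have h1 : (⟨a, ha⟩ : R) * ⟨b, hb'⟩ = ⟨b, hb'⟩ * ⟨a, ha⟩ := by
      rw [← hi, ← hj, ← zpow_add, ← zpow_add, add_comm]
    exact congrArg Subtype.val h1
  -- `2`-elements and odd elements
  have hS2 : ∀ x ∈ (S : Subgroup G), ∃ k : ℕ, x ^ (2 ^ k) = 1 := by
    intro x hx
    obtain ⟨k, hk⟩ := S.2 ⟨x, hx⟩
    exact ⟨k, by simpa using congrArg Subtype.val hk⟩
  have hOpow : ∀ x ∈ O, x ^ Nat.card O = 1 := by
    intro x hx
    have h := pow_card_eq_one' (G := O) (x := ⟨x, hx⟩)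
    have h' := congrArg Subtype.val h
    rwa [Subgroup.coe_pow, Subgroup.coe_one] at h'
  have hcop : ∀ k : ℕ, Nat.Coprime (Nat.card O) (2 ^ k) := by
    intro k
    apply Nat.Coprime.pow_right
    exact hOodd.coprime_two_right
  have hOS : ∀ x ∈ O, x ∈ (S : Subgroup G) → x = 1 := by
    intro x hxO hxS
    obtain ⟨k, hk⟩ := hS2 x hxS
    exact eq_one_of_coprime_pows (hcop k) (hOpow x hxO) hk
  -- description of `K`
  have hK : ∀ x : G, x ∈ O ⊔ R ↔ ∃ y ∈ O, ∃ c ∈ R, x = y * c := by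
    intro x
    constructor
    · intro hx
      let T : Subgroup G :=
        { carrier := {x | ∃ y ∈ O, ∃ c ∈ R, x = y * c}
          one_mem' := ⟨1, O.one_mem, 1, R.one_mem, by simp⟩
          mul_mem' := by
            rintro _ _ ⟨y, hy, c, hc', rfl⟩ ⟨y', hy', c', hc'', rfl⟩
            refine ⟨y * y', O.mul_mem hy hy', c * c', R.mul_mem hc' hc'', ?_⟩
            calc y * c * (y' * c') = y * (c * y') * c' := by group
              _ = y * (y' * c) * c' := by rw [hRO c hc' y' hy']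
              _ = y * y' * (c * c') := by group
          inv_mem' := by
            rintro _ ⟨y, hy, c, hc', rfl⟩
            refine ⟨y⁻¹, O.inv_mem hy, c⁻¹, R.inv_mem hc', ?_⟩
            rw [mul_inv_rev]
            exact hRO c⁻¹ (R.inv_mem hc') y⁻¹ (O.inv_mem hy) }
      have h1 : O ≤ T := fun y hy => ⟨y, hy, 1, R.one_mem, by simp⟩
      have h2 : R ≤ T := fun c hc' => ⟨1, O.one_mem, c, hc', by simp⟩
      exact (sup_le h1 h2) hx
    · rintro ⟨y, hy, c, hc', rfl⟩
      exact Subgroup.mul_mem _ (Subgroup.mem_sup_left hy) (Subgroup.mem_sup_right hc')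
  have hcomm : ∀ a ∈ O ⊔ R, ∀ b ∈ O ⊔ R, a * b = b * a := by
    intro a ha b hb'
    obtain ⟨y, hy, c, hc', rfl⟩ := (hK a).1 ha
    obtain ⟨y', hy', c', hc'', rfl⟩ := (hK b).1 hb'
    calc y * c * (y' * c') = y * (c * y') * c' := by group
      _ = y * (y' * c) * c' := by rw [hRO c hc' y' hy']
      _ = (y * y') * (c * c') := by group
      _ = (y' * y) * (c' * c) := by rw [hOab y hy y' hy', hRab c hc' c' hc'']
      _ = y' * (y * c') * c := by group
      _ = y' * (c' * y) * c := by rw [hRO c' hc'' y hy]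
      _ = y' * c' * (y * c) := by group
  have hKH : O ⊔ R ≤ Subgroup.centralizer ({t} : Set G) := sup_le hOC (hRS.trans hSC)
  -- elements of `H` outside `K`
  have hout : ∀ x ∈ Subgroup.centralizer ({t} : Set G), x ∉ O ⊔ R →
      ∃ y ∈ O, ∃ s ∈ (S : Subgroup G), s ∉ R ∧ x = y * s := by
    intro x hx hxK
    obtain ⟨y, hy, s, hs, rfl⟩ := hfac x hx
    refine ⟨y, hy, s, hs, ?_, rfl⟩
    intro hsR
    exact hxK ((hK _).2 ⟨y, hy, s, hsR, rfl⟩)
  have hsq : ∀ s ∈ (S : Subgroup G), s ∉ R → s * s = 1 := by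
    intro s hs hsR
    have := (hRinv s hs hsR).1
    rw [← pow_two, ← this]; exact pow_orderOf_eq_one s
  have hinvol : ∀ x ∈ Subgroup.centralizer ({t} : Set G), x ∉ O ⊔ R → orderOf x = 2 := by
    intro x hx hxK
    obtain ⟨y, hy, s, hs, hsR, rfl⟩ := hout x hx hxK
    have h1 : y * s ≠ 1 := by
      intro h
      apply hxK
      rw [h]; exact Subgroup.one_mem _
    have h2 : (y * s) ^ 2 = 1 := by
      rw [pow_two]
      calc y * s * (y * s) = y * (s * y * s⁻¹) * (s * s) := by group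
        _ = 1 := by rw [hb s hs hsR y hy, hsq s hs hsR]; group
    exact orderOf_eq_prime h2 h1
  have hinv : ∀ x ∈ Subgroup.centralizer ({t} : Set G), x ∉ O ⊔ R →
      ∀ c ∈ O ⊔ R, x * c * x⁻¹ = c⁻¹ := by
    intro x hx hxK k hk
    obtain ⟨y, hy, s, hs, hsR, rfl⟩ := hout x hx hxK
    obtain ⟨y', hy', c, hc', rfl⟩ := (hK k).1 hk
    have hyK : y ∈ O ⊔ R := Subgroup.mem_sup_left hy
    have hk' : y'⁻¹ * c⁻¹ ∈ O ⊔ R :=
      Subgroup.mul_mem _ (Subgroup.mem_sup_left (O.inv_mem hy')) (Subgroup.mem_sup_right (R.inv_mem hc'))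
    calc y * s * (y' * c) * (y * s)⁻¹ = y * ((s * y' * s⁻¹) * (s * c * s⁻¹)) * y⁻¹ := by group
      _ = y * (y'⁻¹ * c⁻¹) * y⁻¹ := by rw [hb s hs hsR y' hy', (hRinv s hs hsR).2 c hc']
      _ = (y'⁻¹ * c⁻¹) * y * y⁻¹ := by rw [hcomm y hyK _ hk']
      _ = y'⁻¹ * c⁻¹ := by group
      _ = c⁻¹ * y'⁻¹ := (hRO c⁻¹ (R.inv_mem hc') y'⁻¹ (O.inv_mem hy')).symm
      _ = (y' * c)⁻¹ := by rw [mul_inv_rev]
  -- elements of `K`: powers
  have hpowK : ∀ y ∈ O, ∀ c ∈ R, ∀ n : ℕ, (y * c) ^ n = y ^ n * c ^ n := by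
    intro y hy c hc' n
    exact (show Commute y c from (hRO c hc' y hy).symm).mul_pow n
  have hodd_mem : ∀ x ∈ O ⊔ R, Odd (orderOf x) → x ∈ O := by
    intro x hx hodd
    obtain ⟨y, hy, c, hc', rfl⟩ := (hK x).1 hx
    have h1 : y ^ orderOf (y * c) * c ^ orderOf (y * c) = 1 := by
      rw [← hpowK y hy c hc']; exact pow_orderOf_eq_one _
    have h2 : c ^ orderOf (y * c) = (y ^ orderOf (y * c))⁻¹ := (inv_eq_of_mul_eq_one_right h1).symm
    have h3 : c ^ orderOf (y * c) = 1 := by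
      apply hOS
      · rw [h2]; exact O.inv_mem (O.pow_mem hy _)
      · exact hRS (R.pow_mem hc' _)
    obtain ⟨k, hk⟩ := hS2 c (hRS hc')
    have h4 : c = 1 := by
      apply eq_one_of_coprime_pows _ h3 hk
      apply Nat.Coprime.pow_right
      exact hodd.coprime_two_right
    rw [h4, mul_one]; exact hy
  have huniq : ∀ c ∈ O ⊔ R, orderOf c = 2 → c = t := by
    intro x hx hx2
    obtain ⟨y, hy, c, hc', rfl⟩ := (hK x).1 hx
    have h1 : y ^ 2 * c ^ 2 = 1 := by
      rw [← hpowK y hy c hc', ← hx2]; exact pow_orderOf_eq_one _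
    have h2 : y ^ 2 = (c ^ 2)⁻¹ := eq_inv_of_mul_eq_one_left h1
    have h3 : y ^ 2 = 1 := by
      apply hOS _ (O.pow_mem hy _)
      rw [h2]; exact Subgroup.inv_mem _ (hRS (R.pow_mem hc' _))
    have h4 : y = 1 := by
      apply eq_one_of_coprime_pows _ (hOpow y hy) h3
      exact hOodd.coprime_two_right
    subst h4
    rw [one_mul] at hx2 ⊢
    have := hR
    exact Cfsg.Agent.Lib.Helper11.eq_of_orderOf_two_of_mem_cyclic R hc' htR hx2 ht
  have hconj_order : ∀ g x : G, orderOf (g * x * g⁻¹) = orderOf x := by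
    intro g x
    have := (MulAut.conj g).orderOf_eq x
    rwa [MulAut.conj_apply] at this
  refine
    { ot := ht, tK := Subgroup.mem_sup_right htR, comm := hcomm, KH := hKH, cent := rfl,
      ex := ?_, mulK := ?_, invol := hinvol, inv := hinv, uniq := huniq, ti := ?_, cj := hcj }
  · refine ⟨s0, hSC hs0S, ?_⟩
    intro h
    obtain ⟨y, hy, c, hc', he⟩ := (hK s0).1 h
    have h1 : y = s0 * c⁻¹ := by rw [he]; group
    have h2 : y = 1 := hOS y hy (by rw [h1]; exact Subgroup.mul_mem _ hs0S (Subgroup.inv_mem _ (hRS hc')))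
    apply hs0R
    rw [he, h2, one_mul]; exact hc'
  · intro x hx hxK x' hx' hxK'
    obtain ⟨y, hy, s, hs, hsR, rfl⟩ := hout x hx hxK
    obtain ⟨y', hy', s', hs', hsR', rfl⟩ := hout x' hx' hxK'
    rw [hK]
    refine ⟨y * y'⁻¹, O.mul_mem hy (O.inv_mem hy'), s * s', hmul2 s hs hsR s' hs' hsR', ?_⟩
    calc y * s * (y' * s') = y * (s * y' * s⁻¹) * (s * s') := by group
      _ = y * y'⁻¹ * (s * s') := by rw [hb s hs hsR y' hy']
  · intro c hcK hc1 g hg
    rw [Subgroup.mem_centralizer_singleton_iff]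
    rcases Nat.even_or_odd (orderOf c) with hev | hodd
    · -- a power of `c` is `t`
      obtain ⟨n, hn⟩ := hev
      have hpos : 0 < orderOf c := orderOf_pos c
      have hn0 : 0 < n := by omega
      have h1 : orderOf (c ^ n) = 2 := by
        rw [orderOf_pow' c hn0.ne', hn]
        have : Nat.gcd (n + n) n = n := Nat.gcd_eq_right ⟨2, by ring⟩
        rw [this]
        exact Nat.div_eq_of_eq_mul_left hn0 (by ring)
      have h2 : c ^ n = t := huniq _ (Subgroup.pow_mem _ hcK n) h1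
      have h3 : (g * c * g⁻¹) ^ n = g * t * g⁻¹ := by rw [conj_pow, h2]
      have h4 : g * t * g⁻¹ = t := by
        apply huniq
        · rw [← h3]; exact Subgroup.pow_mem _ hg n
        · rw [hconj_order]; exact ht
      calc g * t = (g * t * g⁻¹) * g := by group
        _ = t * g := by rw [h4]
    · have hcO : c ∈ O := hodd_mem c hcK hodd
      have htK : t ∈ O ⊔ R := Subgroup.mem_sup_right htR
      have h1 := hcomm t htK _ hg
      -- `t' = g⁻¹ t g` commutes with `c`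
      have h2 : (g⁻¹ * t * g) * c = c * (g⁻¹ * t * g) := by
        calc g⁻¹ * t * g * c = g⁻¹ * (t * (g * c * g⁻¹)) * g := by group
          _ = g⁻¹ * ((g * c * g⁻¹) * t) * g := by rw [h1]
          _ = c * (g⁻¹ * t * g) := by group
      have h3 : g⁻¹ * t * g ∈ Subgroup.normalizer ((Subgroup.zpowers c : Subgroup G) : Set G) := by
        apply Subgroup.centralizer_le_normalizer
        rw [Subgroup.mem_centralizer_iff]
        intro x hx
        obtain ⟨i, rfl⟩ := Subgroup.mem_zpowers_iff.1 hx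
        exact ((show Commute (g⁻¹ * t * g) c from h2).zpow_right i).eq.symm
      have h4 : g⁻¹ * t * g ∈ Subgroup.centralizer ({t} : Set G) := by
        apply hc (Subgroup.zpowers c) _ _ h3
        · rw [Subgroup.zpowers_le]; exact hcO
        · intro h
          apply hc1
          have : c ∈ Subgroup.zpowers c := Subgroup.mem_zpowers c
          rw [h, Subgroup.mem_bot] at this
          exact this
      have h5 : orderOf (g⁻¹ * t * g) = 2 := by
        have := hconj_order g⁻¹ t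
        rw [inv_inv] at this
        rw [this]; exact ht
      have h6 : g⁻¹ * t * g ∈ O ⊔ R := by
        by_contra hnot
        have h7 := hinv _ h4 hnot c hcK
        have h8 : g⁻¹ * t * g * c * (g⁻¹ * t * g)⁻¹ = c := by rw [h2]; group
        rw [h8] at h7
        apply hc1
        have h9 : c ^ 2 = 1 := by
          rw [pow_two]
          calc c * c = c * c⁻¹ := by rw [← h7]
            _ = 1 := mul_inv_cancel c
        apply eq_one_of_coprime_pows _ (pow_orderOf_eq_one c) h9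
        exact hodd.coprime_two_right
      have h7 : g⁻¹ * t * g = t := huniq _ h6 h5
      calc g * t = g * (g⁻¹ * t * g) := by rw [h7]
        _ = t * g := by group

end Cfsg.Agent.Lib.Helper73.BSW
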