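import Mathlib
import Cfsg.Prelude.Def_CaseTheorems
import Cfsg.Agent.Lib.Helper73.BSW.Defs
import Cfsg.Agent.Lib.Helper73.BSW.CfgData
import Cfsg.Agent.Lib.Helper96.BSWDih
import Cfsg.Agent.Lib.Helper96.BSWFus
import Cfsg.Agent.Lib.Helper92.BSWNilp

/-!
# Brauer–Suzuki–Wall, dihedral form: the configuration
-/

set_option autoImplicit false

namespace Cfsg.Agent.Lib.Helper73.BSW

open Cfsg
open Cfsg.Agent.Lib.Helper96.BSW Cfsg.Agent.Lib.Helper92.BSW

theorem cfg_of_dihedral {G : Type*} [Group G] [Finite G] [IsSimpleGroup G] (S : Sylow 2 G) (n : ℕ)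
    (hn : 2 ≤ n) (hS : Nonempty ((S : Subgroup G) ≃* DihedralGroup n)) (t : G) (ht : orderOf t = 2)
    (htS : t ∈ (S : Subgroup G))
    (htZ : ∀ s ∈ (S : Subgroup G), s * t = t * s) (O : Subgroup G)
    (hO : O = (Cfsg.oddCore (Subgroup.centralizer ({t} : Set G))).map (Subgroup.centralizer ({t} : Set G)).subtype)
    (ha : O ≠ ⊥ → IsCyclic ((S : Subgroup G) ⊓ Subgroup.centralizer (O : Set G) : Subgroup G) ∧
      ((S : Subgroup G) ⊓ Subgroup.centralizer (O : Set G)).relIndex (S : Subgroup G) = 2)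
    (hb : ∀ s ∈ (S : Subgroup G), s ∉ Subgroup.centralizer (O : Set G) → ∀ y ∈ O, s * y * s⁻¹ = y⁻¹)
    (hc : ∀ Y : Subgroup G, Y ≤ O → Y ≠ ⊥ → Subgroup.normalizer (Y : Set G) ≤ Subgroup.centralizer ({t} : Set G)) :
    ∃ K : Subgroup G, Cfg K (Subgroup.centralizer ({t} : Set G)) t := by
  obtain ⟨hOodd, hOC, hOn, hfac⟩ := cent_two_nilpotent S n hn hS t ht htS htZ O hO
  have hSC : (S : Subgroup G) ≤ Subgroup.centralizer ({t} : Set G) := by
    intro s hs
    rw [Subgroup.mem_centralizer_singleton_iff]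
    exact htZ s hs
  by_cases hO1 : O = ⊥
  · obtain ⟨R, hRS, hR, hidx, htR⟩ := dih_cyc_exists (S : Subgroup G) n hn hS t ht htS htZ
    have hRinv := dih_cyc_inverts (S : Subgroup G) n hn hS R hRS hR hidx
    have hcj := invol_conj S R hRS hR hidx t ht htR
    refine ⟨O ⊔ R, cfg_of_data S t ht O R hRS hR hidx htR hRinv hSC hOodd hOC hOn hfac ?_ ?_ hc hcj⟩
    · intro c _ y hy
      rw [hO1, Subgroup.mem_bot] at hy
      rw [hy]; simp
    · intro s _ _ y hy
      rw [hO1, Subgroup.mem_bot] at hy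
      rw [hy]; simp
  · obtain ⟨hR, hidx⟩ := ha hO1
    have hRS : (S : Subgroup G) ⊓ Subgroup.centralizer (O : Set G) ≤ S := inf_le_left
    have htR : t ∈ (S : Subgroup G) ⊓ Subgroup.centralizer (O : Set G) := by
      refine Subgroup.mem_inf.2 ⟨htS, ?_⟩
      rw [Subgroup.mem_centralizer_iff]
      intro y hy
      have := hOC hy
      rw [Subgroup.mem_centralizer_singleton_iff] at this
      exact this
    have hRinv := dih_cyc_inverts (S : Subgroup G) n hn hS _ hRS hR hidx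
    have hcj := invol_conj S _ hRS hR hidx t ht htR
    refine ⟨_, cfg_of_data S t ht O _ hRS hR hidx htR hRinv hSC hOodd hOC hOn hfac ?_ ?_ hc hcj⟩
    · intro c hc' y hy
      have := (Subgroup.mem_inf.1 hc').2
      rw [Subgroup.mem_centralizer_iff] at this
      exact (this y hy).symm
    · intro s hs hsR y hy
      exact hb s hs (fun h => hsR (Subgroup.mem_inf.2 ⟨hs, h⟩)) y hy

end Cfsg.Agent.Lib.Helper73.BSW
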